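import Cfsg.Agent.R2.T1.Main.Two
import Cfsg.Agent.R2.T1.B2.Card
import Cfsg.Agent.R2.T1.B2.Ts2
import Cfsg.Agent.R2.T1.T2p.T2f

/-!
# S5771: the end (helper24)
-/

set_option autoImplicit false

namespace Cfsg.Agent.R2.T1.Main

open Cfsg Cfsg.Lie Module Equiv Equiv.Perm
open Cfsg.Agent.H943.E7V.Block (D1 rho)
open Cfsg.Agent.H952.F4 (ev es MaxAlt)
open Cfsg.Agent.R2.T1 Cfsg.Agent.R2.T1.Pat2

universe u

variable {F : Type u} [Field F]

theorem open2 [Finite F] : Open2 F := by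
  intro n H φ ψ hn h14 hM hL h2 h5 _ h3 _ h33 _ _ h53
  refine T2p.t2_false h2 hn hM hL (Nodd.lift_inj hM hL) h3 h33 h5 ?_ (fun h22 => B2.card_lt (by omega) h22 hM) ?_
  · intro a ha
    rcases h53 with h | h
    · rw [h a ha]; norm_num
    · rw [h a ha]
  · intro h22 S hS hS0 hs
    exact B2.ts2 h2 hM.coatom (B2.not_dvd (by omega) h22 hM) hS hS0 hs

/-- **S5771** -/
theorem final [Fintype F] (H : Subgroup ↥(chevE7.group F)) (hH : IsCoatom H) (n : ℕ) (hn : 5 ≤ n)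
    (hA : Nonempty (↥(generalizedFittingSubgroup ↥H) ≃* ↥(alternatingGroup (Fin n)))) : n = 6 ∨ n = 7 := by
  have : Finite F := inferInstance
  exact final_of (open_of open2) H hH n hn hA

end Cfsg.Agent.R2.T1.Main
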